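import Cfsg.Agent.BG.Sec7
import Cfsg.Agent.S1302

/-! The transitivity theorem for groups with constrained local subgroups. -/

namespace CF.SolvStr
open Subgroup CF.BG CF.Sig
open scoped commutatorElement Pointwise

variable {G : Type*} [Group G] [Finite G] {A H Q S : Subgroup G} {p q : ℕ}

theorem sig_aux_two (h : CharP p H) (hA : A ≤ S) (hS : Syl p S H) (cl : ⁅S, S⁆ ≤ 𝐂 S)
    (hΩ : ∀ x ∈ H ⊓ 𝐂 A, PiElt {p} x → x ∈ A) (hQ : Q ≤ H) (q : PiGrp {p}ᶜ Q) (n : A ≤ 𝐍 Q) :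
    Q = ⊥ := by
  have VS : 𝐎 {p} H ≤ S := hS.O_le
  have nV : H ≤ 𝐍 (𝐎 {p} H) := (O_normal _ H).norm
  have AH : A ≤ H := hA.trans hS.le
  have fin : ∀ Y, Y ≤ Q → Y ≤ 𝐂 (𝐎 {p} H) → Y = ⊥ := fun Y y c =>
    ((O_pi _ _).le (le_trans (le_inf (y.trans hQ) c) h)).eq_bot (q.le y)
  have c1 : 𝐎 {p} H ⊓ 𝐂 A ≤ 𝐂 Q := by
    have hle : 𝐎 {p} H ⊓ 𝐂 A ≤ A := fun x hx =>
      hΩ x ⟨O_le _ _ hx.1, hx.2⟩ ((O_pi _ _).elt hx.1)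
    rw [← comm_eq_bot, ← le_bot_iff, ← PiGrp.inf_eq_bot (O_pi {p} H) q]
    exact le_inf ((commutator_mono inf_le_left le_rfl).trans (comm_le_left (hQ.trans nV)))
      ((commutator_mono hle le_rfl).trans (comm_le_right n))
  have c2 : ∀ Y, Y ≤ S → ⁅𝐎 {p} H, Y⁆ ≤ 𝐎 {p} H ⊓ 𝐂 Q := fun Y y => by
    have e : ⁅𝐎 {p} H, Y⁆ ≤ 𝐎 {p} H := comm_le_left ((y.trans hS.le).trans nV)
    exact le_inf e ((le_inf e (((commutator_mono VS y).trans cl).trans (cent_anti hA))).trans c1)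
  have c3 : ⁅⁅Q, A⁆, 𝐎 {p} H⁆ ≤ 𝐎 {p} H ⊓ 𝐂 Q := by
    refine three_subgroup (norm_inf_cent (hQ.trans nV) (le_norm_self Q))
      (norm_inf_cent (AH.trans nV) n)
      (norm_of_comm_le ((commutator_mono inf_le_left le_rfl).trans (c2 _ VS))) ?_ ?_
    · rw [Subgroup.commutator_comm A, comm_eq_bot.2 ((c2 A hA).trans inf_le_right)]
      exact bot_le
    · exact (commutator_mono (comm_le_left (hQ.trans nV)) le_rfl).trans (c2 A hA)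
  have c4 : ⁅Q, A⁆ = ⊥ := fin _ (comm_le_left n) (cent_of_stable (N := 𝐎 {p} H ⊓ 𝐂 Q)
    ((q.le (comm_le_left n)).coprime' (O_pi {p} H).inf_left)
    (by rwa [Subgroup.commutator_comm]) ((comm_le_left n).trans (cent_symm inf_le_right)))
  exact fin Q le_rfl (cent_of_pxq (hS.pi.le hA) (O_pi _ _) q (comm_eq_bot'.1 c4) (AH.trans nV)
    (hQ.trans nV) c1)

theorem sig_le (hp : p.Prime) (h : PLay p H = ⊥) (hA : A ≤ H) (a : PiGrp {p} A)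
    (cl : p = 2 → ∀ S, S ≤ H → PiGrp {p} S → ⁅S, S⁆ ≤ 𝐂 S)
    (hΩ : ∀ x ∈ H ⊓ 𝐂 A, PiElt {p} x → x ∈ A) (hQ : Q ≤ H) (q : PiGrp {p}ᶜ Q) (n : A ≤ 𝐍 Q) :
    Q ≤ 𝐎 {p}ᶜ H := by
  rw [PLay_eq_bot_iff_charP hp] at h
  have hN := O_normal {p}ᶜ H
  rw [← qt_eq_bot (hQ.trans hN.norm)]
  have hΩ' : ∀ z ∈ qt (𝐎 {p}ᶜ H) H ⊓ 𝐂 (qt (𝐎 {p}ᶜ H) A), PiElt {p} z →
      z ∈ qt (𝐎 {p}ᶜ H) A := by
    intro z hz e
    rw [← qt_cent_pi hN (O_pi _ _) hA a] at hz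
    obtain ⟨x, hx, nx, rfl⟩ := mem_qt.1 hz
    obtain ⟨u, v, hu, hv, pu, pv, rfl⟩ := exists_piPart {p} x
    have hu' := zpowers_le.2 hx hu
    have nu : u ∈ 𝐍 (𝐎 {p}ᶜ H) := hN.norm hu'.1
    have nv : v ∈ 𝐍 (𝐎 {p}ᶜ H) := hN.norm (zpowers_le.2 hx hv).1
    have v1 : qe (𝐎 {p}ᶜ H) v = 1 := by
      refine PiElt.eq_one ?_ (pv.qe nv)
      refine e.of_mem_zpowers ?_
      rw [← qt_zpowers nx]; exact qe_mem_qt hv nv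
    rw [qe_mul nu nv, v1, mul_one]
    exact qe_mem_qt (hΩ u hu' pu) nu
  by_cases h2 : p = 2
  · obtain ⟨S, hS, AS⟩ := exists_syl_le hA a
    refine sig_aux_two h (qt_mono _ AS) (hS.qt hN.norm) ?_ hΩ' (qt_mono _ hQ) (q.qt _)
      (qt_norm _ n)
    rw [← qt_comm (hS.le.trans hN.norm) (hS.le.trans hN.norm)]
    exact qt_cent _ (cl h2 S hS.le hS.pi)
  · exact Cfsg.Agent.S1302.aux hp h2 h (qt_mono _ hA) (a.qt _)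
      (fun z hz e => hΩ' z hz (piElt_of_pow_eq_one hp e)) (qt_mono _ hQ) (q.qt _) (qt_norm _ n)

theorem le_O_cent_of_full (a : PiGrp {p} A) (ab : Abel A)
    (full : ∀ x ∈ 𝐂 A, PiElt {p} x → x ∈ A) {Y : Subgroup G} (hY : Y ≤ 𝐂 A) (y : PiGrp {p}ᶜ Y) :
    Y ≤ 𝐎 {p}ᶜ (𝐂 A) := by
  have s : Syl p A (𝐂 A) := syl_of_max ab a fun Q hQ k l =>
    le_antisymm (fun x hx => full x (hQ hx) (k.elt hx)) l
  exact ((s.dprod_of_cent le_rfl).sdprod.hall_compl_right s).le_O hY y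

theorem trans_aux (a : PiGrp {p} A) (ab : Abel A) (r : 2 < pRank p A)
    (full : ∀ x ∈ 𝐂 A, PiElt {p} x → x ∈ A)
    (sig : ∀ u ∈ A, u ≠ 1 → ∃ L, PiGrp {p}ᶜ L ∧ A ≤ 𝐍 L ∧
      ∀ Q, Q ≤ 𝐂₁ u → PiGrp {p}ᶜ Q → A ≤ 𝐍 Q → Q ≤ L)
    (hq : q ≠ p) (n : ℕ) : ∀ Q₁ Q₂ : Subgroup G,
    ♯(⊤ : Subgroup G) < ♯(Q₁ ⊓ Q₂) + n → MaxInv A q Q₁ → MaxInv A q Q₂ →
    ∃ k ∈ 𝐎 {p}ᶜ (𝐂 A), Q₂ = cj k Q₁ := by
  induction n with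
  | zero => exact fun Q₁ Q₂ l => absurd (card_le (le_top : Q₁ ⊓ Q₂ ≤ ⊤)) (by omega)
  | succ n ih =>
    intro Q₁ Q₂ l q1 q2
    by_cases e : Q₁ = Q₂
    · exact ⟨1, one_mem _, by rw [cj_one, e]⟩
    set D := Q₁ ⊓ Q₂ with hD
    have nD : A ≤ 𝐍 D := norm_inf q1.norm q2.norm
    have a1 : D < Q₁ ⊓ 𝐍 D := q1.pi.nil.lt_inf_norm (q1.lt_of_ne q2 e)
    have a2 : D < Q₂ ⊓ 𝐍 D := q2.pi.nil.lt_inf_norm (by
      have := q2.lt_of_ne q1 (Ne.symm e)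
      rwa [inf_comm] at this)
    have n1 : A ≤ 𝐍 (Q₁ ⊓ 𝐍 D) := norm_inf q1.norm (nD.trans (norm_le_norm_norm D))
    have n2 : A ≤ 𝐍 (Q₂ ⊓ 𝐍 D) := norm_inf q2.norm (nD.trans (norm_le_norm_norm D))
    have p1 : PiGrp {p}ᶜ Q₁ := q1.pi.of_single_ne hq
    have p2 : PiGrp {p}ᶜ Q₂ := q2.pi.of_single_ne hq
    obtain ⟨B, b⟩ := exists_elem (show 3 ≤ pRank p A from r)
    obtain ⟨C, c, c1⟩ : ∃ C, Elem p 2 C B ∧ ¬ (Q₁ ⊓ 𝐍 D) ⊓ 𝐂 C ≤ D := by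
      by_contra hc
      push Not at hc
      exact a1.not_ge (b.le_of_cent (b.le.trans n1) p1.inf_left hc)
    obtain ⟨u, hu, u1, c2⟩ : ∃ u ∈ C, u ≠ 1 ∧ ¬ (Q₂ ⊓ 𝐍 D) ⊓ 𝐂₁ u ≤ D := by
      by_contra hc
      push Not at hc
      exact a2.not_ge (c.abel.le_of_cent1 c.not_cyc ((c.le.trans b.le).trans n2)
        (c.pi.coprime p2.inf_left) hc)
    have c1' : ¬ (Q₁ ⊓ 𝐍 D) ⊓ 𝐂₁ u ≤ D := fun h =>
      c1 ((inf_le_inf_left _ (cent_le_cent1 hu)).trans h)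
    have uA : u ∈ A := b.le (c.le hu)
    obtain ⟨L, pL, nL, hL⟩ := sig u uA u1
    have nu : A ≤ 𝐍 (𝐂₁ u) := norm_of_le (le_cent1_iff.2 (ab uA))
    have nX : A ≤ 𝐍 (D ⊔ L ⊓ 𝐍 D) := norm_sup nD (norm_inf nL (nD.trans (norm_le_norm_norm D)))
    have pX : PiGrp {p}ᶜ (D ⊔ L ⊓ 𝐍 D) := p1.inf_left.sup pL.inf_left (Or.inr inf_le_right)
    have co := a.coprime pX
    have key : ∀ Q, MaxInv A q Q → D ≤ Q → A ≤ 𝐍 (Q ⊓ 𝐍 D) → ¬ (Q ⊓ 𝐍 D) ⊓ 𝐂₁ u ≤ D →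
        ∃ R, Syl q R (D ⊔ L ⊓ 𝐍 D) ∧ A ≤ 𝐍 R ∧ D < Q ⊓ R := by
      intro Q hQ l m c
      have h1 : (Q ⊓ 𝐍 D) ⊓ 𝐂₁ u ≤ L ⊓ 𝐍 D := le_inf (hL _ inf_le_right
        (hQ.pi.of_single_ne hq).inf_left.inf_left (norm_inf m nu)) (inf_le_left.trans inf_le_right)
      have h2 : D ⊔ (Q ⊓ 𝐍 D) ⊓ 𝐂₁ u ≤ Q := sup_le l (inf_le_left.trans inf_le_left)
      obtain ⟨R, s, nR, lR⟩ := exists_syl_inv_le nX co (Or.inl a.sol) (sup_le_sup_left h1 D)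
        (hQ.pi.le h2) (norm_sup nD (norm_inf m nu))
      exact ⟨R, s, nR, (left_lt_sup.2 c).trans_le (le_inf h2 lR)⟩
    obtain ⟨R₁, s1, m1, l1⟩ := key Q₁ q1 inf_le_left n1 c1'
    obtain ⟨R₂, s2, m2, l2⟩ := key Q₂ q2 inf_le_right n2 c2
    obtain ⟨k, hk, rfl⟩ := s1.syl_conj_inv s2 nX co (Or.inl a.sol) m1 m2
    have hk' : k ∈ 𝐎 {p}ᶜ (𝐂 A) := le_O_cent_of_full a ab full inf_le_right pX.inf_left hk
    obtain ⟨Q₃, q3, l3⟩ := exists_maxInv s2.pi m2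
    have b1 := card_le (le_inf (cj_mono k (inf_le_left : Q₁ ⊓ R₁ ≤ Q₁))
      ((cj_mono k inf_le_right).trans l3))
    have b2 := card_le (le_inf (inf_le_right.trans l3) (inf_le_left : Q₂ ⊓ cj k R₁ ≤ Q₂))
    rw [card_cj] at b1
    have d1 := card_lt l1
    have d2 := card_lt l2
    obtain ⟨k1, hk1, e1⟩ := ih (cj k Q₁) Q₃ (by omega)
      (q1.cj_of_norm (cent_le_norm A hk.2)) q3
    obtain ⟨k2, hk2, e2⟩ := ih Q₃ Q₂ (by omega) q3 q2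
    exact ⟨k2 * (k1 * k), mul_mem hk2 (mul_mem hk1 hk'), by rw [e2, e1, cj_cj, cj_cj, mul_assoc]⟩

/-- the transitivity theorem -/
theorem transitivity (hp : p.Prime) (loc : ∀ u : G, u ≠ 1 → PiElt {p} u → PLay p (𝐍 (zpowers u)) = ⊥)
    (cl : p = 2 → ∀ S : Subgroup G, PiGrp {p} S → ⁅S, S⁆ ≤ 𝐂 S)
    (a : PiGrp {p} A) (ab : Abel A) (r : 2 < pRank p A)
    (full : ∀ x ∈ 𝐂 A, PiElt {p} x → x ∈ A) (hq : q ≠ p) : TransOn (𝐎 {p}ᶜ (𝐂 A)) A q := by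
  intro Q₁ Q₂ q1 q2
  refine trans_aux a ab r full (fun u hu u1 => ?_) hq _ Q₁ Q₂
    (Nat.lt_add_left _ (Nat.lt_succ_self _)) q1 q2
  have nA : A ≤ 𝐍 (zpowers u) := ab.le_norm (zpowers_le.2 hu)
  refine ⟨_, O_pi {p}ᶜ (𝐍 (zpowers u)), nA.trans (O_normal _ _).norm, fun Q hQ k n => ?_⟩
  exact sig_le hp (loc u u1 (a.elt hu)) nA a (fun h S _ => cl h S) (fun x hx => full x hx.2)
    (hQ.trans (cent_zpowers u ▸ cent_le_norm _)) k n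

end CF.SolvStr
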