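import Cfsg.Agent.BG.B11
import Cfsg.Agent.Char.Integral
import Mathlib.RingTheory.Polynomial.Cyclotomic.Factorization

/-! Groups with three orbits of automorphisms. -/

set_option linter.unusedSectionVars false

namespace CF.SolvStr
open Polynomial

section lin
variable {p q : ℕ} [hp : Fact p.Prime] [hq : Fact q.Prime] {V : Type*} [AddCommGroup V]
  [Module (ZMod p) V] [Finite V]

theorem aeval_apply_mem {T : Module.End (ZMod p) V} {W : Submodule (ZMod p) V}
    (h : ∀ w ∈ W, T w ∈ W) (f : (ZMod p)[X]) : ∀ w ∈ W, aeval T f w ∈ W := by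
  induction f using Polynomial.induction_on with
  | C a => intro w hw; simpa using W.smul_mem a hw
  | add f g hf hg => intro w hw; simpa using W.add_mem (hf w hw) (hg w hw)
  | monomial n a ih =>
    intro w hw
    rw [pow_succ, ← mul_assoc, map_mul, Module.End.mul_apply, aeval_X]
    exact ih _ (h w hw)

theorem aeval_semiconj {S T β : Module.End (ZMod p) V} (h : ∀ u, β (T u) = S (β u))
    (f : (ZMod p)[X]) : ∀ u, β (aeval T f u) = aeval S f (β u) := by
  induction f using Polynomial.induction_on with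
  | C a => intro w; simp
  | add f g hf hg => intro w; simp [hf, hg]
  | monomial n a ih =>
    intro w
    rw [pow_succ, ← mul_assoc, map_mul (aeval T), map_mul (aeval S), Module.End.mul_apply,
      Module.End.mul_apply, aeval_X, aeval_X, ih, h]

theorem order_of_trans (T : Module.End (ZMod p) V) (hT : T ^ q = 1) (h1 : T ≠ 1) (hpq : p ≠ q)
    (hmin : ∀ v : V, v ≠ 0 → ∃ W : Submodule (ZMod p) V, v ∈ W ∧ (∀ w ∈ W, T w ∈ W) ∧
      ∀ U : Submodule (ZMod p) V, (∀ u ∈ U, T u ∈ U) → ∀ u ∈ U, u ∈ W → u ≠ 0 → W ≤ U)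
    (hpow : ∀ k : ℕ, k.Coprime q → ∃ β : Module.End (ZMod p) V, Function.Surjective β ∧
      ∀ u, β (T u) = (T ^ k) (β u)) : orderOf (p : ZMod q) = q - 1 := by
  have dom : ∀ f : (ZMod p)[X], ∀ v, v ≠ 0 → aeval T f v = 0 → aeval T f = 0 := by
    intro f v hv e
    have kinv : ∀ u ∈ LinearMap.ker (aeval T f), T u ∈ LinearMap.ker (aeval T f) := fun u hu => by
      rw [LinearMap.mem_ker] at hu ⊢
      rw [← aeval_semiconj (β := T) (S := T) (fun _ => rfl), hu, map_zero]
    ext w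
    by_contra ne
    have w0 : w ≠ 0 := by rintro rfl; simp at ne
    have vw : v + w ≠ 0 := fun h => ne (by simpa [e] using congrArg (aeval T f) h)
    obtain ⟨W, a, b, c⟩ := hmin w w0
    obtain ⟨W', a', b', c'⟩ := hmin _ vw
    have h2 : aeval T f w ∈ W' := by simpa [e] using aeval_apply_mem b' f _ a'
    have h3 : W' ≤ W := c' W b _ (aeval_apply_mem b f _ a) h2 ne
    have h4 : v ∈ W := by simpa using W.sub_mem (h3 a') a
    exact ne (c _ kinv v e h4 hv a)
  have : Module.Finite (ZMod p) V := Module.Finite.of_finite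
  have hi : IsIntegral (ZMod p) T := Algebra.IsIntegral.isIntegral T
  have nt : Nontrivial (Module.End (ZMod p) V) := ⟨⟨_, _, h1⟩⟩
  have irr : Irreducible (minpoly (ZMod p) T) := by
    refine ⟨minpoly.not_isUnit _ _, fun g h e => ?_⟩
    have e0 := minpoly.aeval (ZMod p) T
    rw [e, map_mul] at e0
    have key : ∀ g h : (ZMod p)[X], minpoly (ZMod p) T = g * h → aeval T h = 0 → IsUnit g := by
      intro g h e z
      have d := minpoly.dvd _ _ z
      have h0 : h ≠ 0 := by rintro rfl; exact minpoly.ne_zero hi (by simpa using e)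
      rw [e] at d
      exact isUnit_of_dvd_one ((mul_dvd_mul_iff_right h0).1 (by simpa using d))
    by_cases z : aeval T h = 0
    · exact Or.inl (key g h e z)
    · obtain ⟨v, hv⟩ : ∃ v, aeval T h v ≠ 0 := by
        by_contra c
        push Not at c
        exact z (LinearMap.ext c)
      exact Or.inr (key h g (by rw [e, mul_comm]) (dom g _ hv (by
        rw [← Module.End.mul_apply, e0]; rfl)))
  have := Fact.mk irr
  set f := minpoly (ZMod p) T with hf
  have := (minpoly.monic hi).finite_adjoinRoot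
  have : Finite (AdjoinRoot f) := Module.finite_of_finite (ZMod p)
  have z0 : ∀ g, aeval T g = 0 → aeval (AdjoinRoot.root f) g = 0 := fun g h => by
    rw [AdjoinRoot.aeval_eq, AdjoinRoot.mk_eq_zero]; exact minpoly.dvd _ _ h
  have zq : AdjoinRoot.root f ^ q = 1 := by
    have := z0 (X ^ q - 1) (by simp [hT])
    rwa [map_sub, map_pow, aeval_X, map_one, sub_eq_zero] at this
  have z1 : AdjoinRoot.root f ≠ 1 := fun e => by
    have : AdjoinRoot.mk f (X - 1) = 0 := by simp [e]
    obtain ⟨g, hg⟩ := AdjoinRoot.mk_eq_zero.1 this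
    have := congrArg (aeval T) hg
    rw [map_mul, minpoly.aeval, zero_mul] at this
    exact h1 (by simpa [sub_eq_zero] using this)
  have oz : orderOf (AdjoinRoot.root f) = q := orderOf_eq_prime zq z1
  have key : ∀ k : ℕ, k.Coprime q → ∃ j : ℕ, (p : ZMod q) ^ j = k := by
    intro k hk
    obtain ⟨β, sβ, hβ⟩ := hpow k hk
    have e1 : aeval (T ^ k) f = 0 := by
      ext u
      obtain ⟨u, rfl⟩ := sβ u
      rw [← aeval_semiconj hβ, minpoly.aeval]; simp
    have e2 := z0 (f.comp (X ^ k)) (by rw [aeval_comp]; simpa using e1)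
    rw [aeval_comp, aeval_X_pow] at e2
    replace e2 : f.eval₂ (Algebra.ofId (ZMod p) (AdjoinRoot f)) (AdjoinRoot.root f ^ k) = 0 := e2
    obtain ⟨j, hj⟩ := (FiniteField.bijective_frobeniusAlgHom_pow (ZMod p) (AdjoinRoot f)).2
      (AdjoinRoot.liftAlgHom f (Algebra.ofId _ _) (AdjoinRoot.root f ^ k) e2)
    have := DFunLike.congr_fun hj (AdjoinRoot.root f)
    simp only [AlgHom.coe_pow, FiniteField.coe_frobeniusAlgHom, pow_iterate,
      AdjoinRoot.liftAlgHom_root, ZMod.card] at this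
    rw [(orderOf_pos_iff.1 (oz ▸ hq.out.pos)).pow_eq_pow_iff_modEq, oz] at this
    exact ⟨j, by exact_mod_cast (ZMod.natCast_eq_natCast_iff _ _ _).2 this⟩
  have p0 : (p : ZMod q) ≠ 0 := fun h =>
    hpq ((Nat.prime_dvd_prime_iff_eq hq.out hp.out).1 ((ZMod.natCast_eq_zero_iff _ _).1 h)).symm
  have hu : orderOf (Units.mk0 (p : ZMod q) p0) = Nat.card (ZMod q)ˣ := by
    refine orderOf_eq_card_of_forall_mem_zpowers fun u => ?_
    obtain ⟨j, hj⟩ := key _ (ZMod.val_coe_unit_coprime u)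
    exact ⟨j, Units.ext (by simpa using hj)⟩
  rw [Nat.card_eq_fintype_card, ZMod.card_units] at hu
  rw [← hu, ← orderOf_units]; rfl

theorem exists_equiv_map {K W : Type*} [Field K] [AddCommGroup W] [Module K W] [Finite W] {v w : W}
    (hv : v ≠ 0) (hw : w ≠ 0) : ∃ β : W →ₗ[K] W, Function.Injective β ∧ β v = w := by
  obtain ⟨φ, h1, h2⟩ : ∃ φ : Module.Dual K W, φ v ≠ 0 ∧ φ w ≠ 0 := by
    obtain ⟨a, ha⟩ := Module.Projective.exists_dual_ne_zero K hv
    obtain ⟨b, hb⟩ := Module.Projective.exists_dual_ne_zero K hw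
    by_cases c : a w = 0
    · by_cases d : b v = 0
      · exact ⟨a + b, by simpa [d] using ha, by simpa [c] using hb⟩
      · exact ⟨b, d, hb⟩
    · exact ⟨a, ha, c⟩
  refine ⟨LinearMap.id + ((φ v)⁻¹ • φ).smulRight (w - v), ?_, by simp [h1]⟩
  rw [injective_iff_map_eq_zero]
  intro u hu
  have e : u + ((φ v)⁻¹ * φ u) • (w - v) = 0 := by simpa using hu
  have e2 := congrArg φ e
  simp only [map_add, map_smul, map_sub, smul_eq_mul, map_zero] at e2
  have : φ u = 0 := by
    have : φ u * φ w = 0 := by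
      field_simp at e2
      linear_combination e2
    exact (mul_eq_zero.1 this).resolve_right h2
  simpa [this] using e

theorem trans_of_order (T : Module.End (ZMod p) V) (hT : T ^ q = 1) (hpq : p ≠ q)
    (hfix : ∀ v, T v = v → v = 0) (ho : orderOf (p : ZMod q) = q - 1) :
    (∀ v w : V, v ≠ 0 → w ≠ 0 → ∃ β : V →+ V, Function.Injective β ∧ β v = w ∧
      ∀ u, β (T u) = T (β u)) ∧
    ∃ β : V →+ V, Function.Injective β ∧ ∀ u, β (T u) = (T ^ p) (β u) := by
  have nd : ¬ p ∣ q := fun h => hpq ((Nat.prime_dvd_prime_iff_eq hp.out hq.out).1 h)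
  have irr : Irreducible (cyclotomic q (ZMod p)) := by
    refine ZMod.irreducible_of_dvd_cyclotomic_of_natDegree nd dvd_rfl ?_
    rw [natDegree_cyclotomic, Nat.totient_prime hq.out, ← ho, ← orderOf_units]; rfl
  have := Fact.mk irr
  have z : aeval T (cyclotomic q (ZMod p)) = 0 := by
    ext v
    refine hfix _ ?_
    have := congrArg (aeval T) (cyclotomic_prime_mul_X_sub_one (ZMod p) q)
    rw [mul_comm, map_mul] at this
    have := LinearMap.congr_fun this v
    simpa [hT, sub_eq_zero] using this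
  let ρ : AdjoinRoot (cyclotomic q (ZMod p)) →+* Module.End (ZMod p) V :=
    Ideal.Quotient.lift _ (aeval T).toRingHom fun g hg => by
      obtain ⟨h, rfl⟩ := Ideal.mem_span_singleton.1 hg
      simp [z]
  have hρ : ρ (AdjoinRoot.root _) = T := by
    change (aeval T).toRingHom X = T
    simp
  let _ : Module (AdjoinRoot (cyclotomic q (ZMod p))) V := Module.compHom V ρ
  have sm : ∀ (n : ℕ) (u : V), (T ^ n) u = (AdjoinRoot.root (cyclotomic q (ZMod p))) ^ n • u :=
    fun n u => by rw [← hρ, ← map_pow]; rfl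
  have sm1 : ∀ u : V, T u = AdjoinRoot.root (cyclotomic q (ZMod p)) • u := fun u => by
    simpa using sm 1 u
  refine ⟨fun v w hv hw => ?_, ?_⟩
  · obtain ⟨β, a, b⟩ := exists_equiv_map (K := AdjoinRoot (cyclotomic q (ZMod p))) hv hw
    exact ⟨β, a, b, fun u => by simp [sm1]⟩
  · have : CharP (AdjoinRoot (cyclotomic q (ZMod p))) p :=
      charP_of_injective_algebraMap (algebraMap (ZMod p) _).injective p
    let b := Module.Basis.ofVectorSpace (AdjoinRoot (cyclotomic q (ZMod p))) V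
    refine ⟨b.repr.symm.toAddMonoidHom.comp ((Finsupp.mapRange.addMonoidHom
      (frobenius _ p).toAddMonoidHom).comp b.repr.toAddMonoidHom), ?_, fun u => ?_⟩
    · exact b.repr.symm.injective.comp ((Finsupp.mapRange_injective (frobenius _ p) (map_zero _)
        (frobenius_inj _ p)).comp b.repr.injective)
    · rw [sm, sm1]
      apply b.repr.injective
      ext i
      simp [frobenius_def, mul_pow]

end lin

section mul
variable {p q : ℕ} [hp : Fact p.Prime] [hq : Fact q.Prime] {P : Type*} [CommGroup P] [Finite P]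

theorem lin_pow {V : Type*} [AddCommGroup V] [Module (ZMod p) V] (f : V →+ V) (n : ℕ) (u : V) :
    (f.toZModLinearMap p ^ n : Module.End (ZMod p) V) u = f^[n] u := by
  rw [Module.End.pow_apply]; rfl

theorem order_of_trans_add {V : Type*} [AddCommGroup V] [Finite V] (hP : ∀ v : V, p • v = 0)
    (τ : V →+ V) (hT : ∀ u, τ^[q] u = u) (h1 : ¬ ∀ u, τ u = u) (hpq : p ≠ q)
    (hmin : ∀ v : V, v ≠ 0 → ∃ W : AddSubgroup V, v ∈ W ∧ (∀ w ∈ W, τ w ∈ W) ∧
      ∀ U : AddSubgroup V, (∀ u ∈ U, τ u ∈ U) → ∀ u ∈ U, u ∈ W → u ≠ 0 → W ≤ U)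
    (hpow : ∀ k : ℕ, k.Coprime q → ∃ β : V →+ V, Function.Surjective β ∧
      ∀ u, β (τ u) = τ^[k] (β u)) :
    orderOf (p : ZMod q) = q - 1 := by
  let _ : Module (ZMod p) V := AddCommGroup.zmodModule hP
  refine order_of_trans (τ.toZModLinearMap p) (LinearMap.ext fun u => by rw [lin_pow, hT]; rfl)
    (fun e => h1 fun u => LinearMap.congr_fun e u) hpq (fun v hv => ?_) fun k hk => ?_
  · obtain ⟨W, a, b, c⟩ := hmin v hv
    exact ⟨AddSubgroup.toZModSubmodule p W, a, b, fun U hU u hu hw u1 =>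
      c U.toAddSubgroup hU u hu hw u1⟩
  · obtain ⟨β, s, hβ⟩ := hpow k hk
    exact ⟨β.toZModLinearMap p, s, fun u => by rw [lin_pow]; exact hβ u⟩

theorem trans_of_order_add {V : Type*} [AddCommGroup V] [Finite V] (hP : ∀ v : V, p • v = 0)
    (τ : V →+ V) (hT : ∀ u, τ^[q] u = u) (hpq : p ≠ q)
    (hfix : ∀ v, τ v = v → v = 0) (ho : orderOf (p : ZMod q) = q - 1) :
    (∀ v w : V, v ≠ 0 → w ≠ 0 → ∃ β : V →+ V, Function.Injective β ∧ β v = w ∧
      ∀ u, β (τ u) = τ (β u)) ∧
    ∃ β : V →+ V, Function.Injective β ∧ ∀ u, β (τ u) = τ^[p] (β u) := by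
  let _ : Module (ZMod p) V := AddCommGroup.zmodModule hP
  obtain ⟨h1, β, h2, h3⟩ := trans_of_order (τ.toZModLinearMap p)
    (LinearMap.ext fun u => by rw [lin_pow, hT]; rfl) hpq hfix ho
  exact ⟨h1, β, h2, fun u => by rw [← lin_pow (p := p)]; exact h3 u⟩

theorem aut_iter (τ : MulAut P) (n : ℕ) (u : Additive P) :
    (MonoidHom.toAdditive (τ : P →* P))^[n] u = Additive.ofMul ((τ ^ n) u.toMul) := by
  induction n generalizing u with
  | zero => rfl
  | succ n ih => rw [Function.iterate_succ_apply, ih, pow_succ]; rfl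

theorem order_of_trans_mul (hP : ∀ v : P, v ^ p = 1) (τ : MulAut P) (hT : τ ^ q = 1) (h1 : τ ≠ 1)
    (hpq : p ≠ q)
    (hmin : ∀ v : P, v ≠ 1 → ∃ W : Subgroup P, v ∈ W ∧ (∀ w ∈ W, τ w ∈ W) ∧
      ∀ U : Subgroup P, (∀ u ∈ U, τ u ∈ U) → ∀ u ∈ U, u ∈ W → u ≠ 1 → W ≤ U)
    (hpow : ∀ k : ℕ, k.Coprime q → ∃ β : MulAut P, ∀ u, β (τ u) = (τ ^ k) (β u)) :
    orderOf (p : ZMod q) = q - 1 := by
  refine order_of_trans_add (V := Additive P) (fun x => hP x.toMul)
    (MonoidHom.toAdditive (τ : P →* P)) (fun u => by rw [aut_iter, hT]; rfl)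
    (fun e => h1 (MulEquiv.ext fun u => e (Additive.ofMul u))) hpq (fun v hv => ?_) fun k hk => ?_
  · obtain ⟨W, a, b, c⟩ := hmin v.toMul hv
    exact ⟨W.toAddSubgroup, a, b, fun U hU u hu hw u1 =>
      c (AddSubgroup.toSubgroup U) hU u hu hw u1⟩
  · obtain ⟨β, hβ⟩ := hpow k hk
    exact ⟨MonoidHom.toAdditive (β : P →* P), β.surjective, fun u => by
      rw [aut_iter]; exact hβ u.toMul⟩

theorem trans_of_order_mul (hP : ∀ v : P, v ^ p = 1) (τ : MulAut P) (hT : τ ^ q = 1) (hpq : p ≠ q)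
    (hfix : ∀ v, τ v = v → v = 1) (ho : orderOf (p : ZMod q) = q - 1) :
    (∀ v w : P, v ≠ 1 → w ≠ 1 → ∃ β : P →* P, Function.Injective β ∧ β v = w ∧
      ∀ u, β (τ u) = τ (β u)) ∧
    ∃ β : P →* P, Function.Injective β ∧ ∀ u, β (τ u) = (τ ^ p) (β u) := by
  obtain ⟨h1, β, h2, h3⟩ := trans_of_order_add (V := Additive P) (fun x => hP x.toMul)
    (MonoidHom.toAdditive (τ : P →* P)) (fun u => by rw [aut_iter, hT]; rfl) hpq hfix ho
  refine ⟨fun v w hv hw => ?_, MonoidHom.toAdditive.symm β, h2, fun u => ?_⟩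
  · obtain ⟨γ, a, b, c⟩ := h1 (Additive.ofMul v) (Additive.ofMul w) hv hw
    exact ⟨MonoidHom.toAdditive.symm γ, a, b, c⟩
  · have := h3 (Additive.ofMul u)
    rw [aut_iter] at this
    exact this

end mul

section grp
open Subgroup CF.BG
variable {G : Type*} [Group G] [Finite G]

/-- extension of a pair of compatible maps to an automorphism of a semidirect product -/
theorem exists_aut_ext {P Q : Subgroup G} [P.Normal] (h : IsComplement' P Q) (β : P →* P)
    (γ : Q →* Q) (hβ : Function.Injective β) (hγ : Function.Injective γ)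
    (c : ∀ (x : Q) (v : P), (β (MulAut.conjNormal (x : G) v) : G) = γ x * β v * (γ x : G)⁻¹) :
    ∃ α : MulAut G, (∀ v : P, α v = β v) ∧ ∀ x : Q, α x = γ x := by
  let e := SemidirectProduct.mulEquivSubgroup h
  let f : G →* G := MonoidHom.comp (SemidirectProduct.lift (P.subtype.comp β) (Q.subtype.comp γ)
    (by exact fun x => MonoidHom.ext fun v => c x v)) e.symm.toMonoidHom
  have f1 : ∀ v : P, f v = β v := fun v => by
    have : e (SemidirectProduct.inl v) = v := by simp [e]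
    simp [f, ← this]
  have f2 : ∀ x : Q, f x = γ x := fun x => by
    have : e (SemidirectProduct.inr x) = x := by simp [e]
    simp [f, ← this]
  refine ⟨MulEquiv.ofBijective f (Finite.surjective_iff_bijective.1 fun g => ?_), f1, f2⟩
  obtain ⟨⟨v, x⟩, rfl⟩ := h.2 g
  obtain ⟨v, rfl⟩ := Finite.surjective_of_injective hβ v
  obtain ⟨x, rfl⟩ := Finite.surjective_of_injective hγ x
  exact ⟨v * x, by rw [map_mul, f1, f2]⟩

theorem card_orbits_eq_three : Nat.card (MulAction.orbitRel.Quotient (MulAut G) G) = 3 ↔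
    ∃ a b : G, a ≠ 1 ∧ b ≠ 1 ∧ (∀ α : MulAut G, α a ≠ b) ∧
      ∀ g : G, g ≠ 1 → (∃ α : MulAut G, α a = g) ∨ ∃ α : MulAut G, α b = g := by
  classical
  have key : ∀ x y : G, (Quotient.mk'' x : MulAction.orbitRel.Quotient (MulAut G) G) =
      Quotient.mk'' y ↔ ∃ α : MulAut G, α y = x := fun x y => by
    rw [Quotient.eq'', MulAction.orbitRel_apply]; rfl
  have k1 : ∀ x : G, (Quotient.mk'' x : MulAction.orbitRel.Quotient (MulAut G) G) =
      Quotient.mk'' 1 ↔ x = 1 := fun x => by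
    rw [key]; exact ⟨fun ⟨α, h⟩ => by rw [← h, map_one], fun h => ⟨1, h.symm⟩⟩
  have := Fintype.ofFinite (MulAction.orbitRel.Quotient (MulAut G) G)
  rw [Nat.card_eq_fintype_card]
  constructor
  · intro h
    have h2 : (Finset.univ.erase (Quotient.mk'' 1 :
        MulAction.orbitRel.Quotient (MulAut G) G)).card = 2 := by
      rw [Finset.card_erase_of_mem (Finset.mem_univ _), Finset.card_univ, h]
    obtain ⟨x, y, xy, e⟩ := Finset.card_eq_two.1 h2
    obtain ⟨a, rfl⟩ := Quotient.mk''_surjective x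
    obtain ⟨b, rfl⟩ := Quotient.mk''_surjective y
    have m : ∀ g : G, g ≠ 1 ↔ (Quotient.mk'' g : MulAction.orbitRel.Quotient (MulAut G) G) =
        Quotient.mk'' a ∨ (Quotient.mk'' g : MulAction.orbitRel.Quotient (MulAut G) G) =
        Quotient.mk'' b := fun g => by
      rw [← Finset.mem_singleton (a := Quotient.mk'' b), ← Finset.mem_insert, ← e]
      simp [k1]
    refine ⟨a, b, (m a).2 (Or.inl rfl), (m b).2 (Or.inr rfl), fun α h => xy ((key _ _).2 ⟨α, h⟩).symm,
      fun g hg => ?_⟩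
    simpa only [key] using (m g).1 hg
  · rintro ⟨a, b, a1, b1, ab, h⟩
    refine Finset.card_eq_three.2 ⟨Quotient.mk'' 1, Quotient.mk'' a, Quotient.mk'' b,
      fun e => a1 ((k1 a).1 e.symm), fun e => b1 ((k1 b).1 e.symm),
      fun e => ((key _ _).1 e.symm).elim ab, Finset.ext fun x => ?_⟩
    obtain ⟨g, rfl⟩ := Quotient.mk''_surjective x
    by_cases g1 : g = 1
    · simp [g1]
    · simpa [key, k1, g1] using Or.inr (h g g1)

theorem aut3_struct {p q : ℕ} [hp : Fact p.Prime] [hq : Fact q.Prime] (pq : p ≠ q) {a b : G}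
    (oa : orderOf a = p) (ob : orderOf b = q)
    (h : ∀ g : G, g ≠ 1 → (∃ α : MulAut G, α a = g) ∨ ∃ α : MulAut G, α b = g)
    (P1 : 𝐎 {p} (⊤ : Subgroup G) ≠ ⊥) :
    ∃ n, 1 ≤ n ∧ Nat.card G = p ^ n * q ∧
      (∀ P : Sylow p G, (P : Subgroup G).Normal ∧ Cfsg.IsElementaryAbelian p (P : Subgroup G)) ∧
      orderOf (p : ZMod q) = q - 1 ∧
      ∀ x y : G, orderOf x = q → orderOf y = p → x * y * x⁻¹ ≠ y := by
  have ord : ∀ g : G, g ≠ 1 → orderOf g = p ∨ orderOf g = q := fun g hg =>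
    (h g hg).imp (fun ⟨α, e⟩ => by rw [← e, α.orderOf_eq, oa])
      fun ⟨α, e⟩ => by rw [← e, α.orderOf_eq, ob]
  have tp : ∀ g : G, orderOf g = p → ∃ α : MulAut G, α a = g := fun g e =>
    (h g (by rintro rfl; exact hp.out.one_lt.ne (by simpa using e))).resolve_right
      fun ⟨α, e'⟩ => pq (by rw [← e, ← e', α.orderOf_eq, ob])
  have tq : ∀ g : G, orderOf g = q → ∃ α : MulAut G, α b = g := fun g e =>
    (h g (by rintro rfl; exact hq.out.one_lt.ne (by simpa using e))).resolve_left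
      fun ⟨α, e'⟩ => pq (by rw [← e, ← e', α.orderOf_eq, oa])
  have tp' : ∀ g g' : G, orderOf g = p → orderOf g' = p → ∃ α : MulAut G, α g = g' := by
    intro g g' e e'
    obtain ⟨α, rfl⟩ := tp g e
    obtain ⟨β, rfl⟩ := tp g' e'
    exact ⟨β * α⁻¹, by simp⟩
  have op : ∀ g : G, g ≠ 1 → PiElt {p} g → orderOf g = p := fun g g1 pg =>
    (ord g g1).resolve_right fun e => pq (pg q hq.out (e ▸ dvd_rfl)).symm
  have oq : ∀ g : G, g ≠ 1 → PiElt {q} g → orderOf g = q := fun g g1 pg =>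
    (ord g g1).resolve_left fun e => pq (pg p hp.out (e ▸ dvd_rfl))
  have nc : ∀ x y : G, orderOf x = q → orderOf y = p → x * y ≠ y * x := fun x y ox oy e => by
    have o := Commute.orderOf_mul_eq_mul_orderOf_of_coprime (show Commute x y from e)
      (by rw [ox, oy]; exact (Nat.coprime_primes hq.out hp.out).2 pq.symm)
    rw [ox, oy] at o
    have h1 := hp.out.one_lt
    have h2 := hq.out.one_lt
    rcases ord (x * y) (fun e => by rw [e, orderOf_one] at o; nlinarith) with e | e <;> nlinarith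
  set P := 𝐎 {p} (⊤ : Subgroup G) with hP
  have nP : P.Normal := normalIn_top.1 (O_normal _ _)
  have pP : PiGrp {p} P := O_pi _ _
  have mP : ∀ α : MulAut G, P.map α.toMonoidHom = P := fun α => by
    rw [hP, map_O _ _ α.injective, map_top_of_surjective _ α.surjective]
  have full : ∀ X : Subgroup G, X ≠ ⊥ → X ≤ P → (∀ α : MulAut G, X.map α.toMonoidHom ≤ X) →
      ∀ g, PiElt {p} g → g ∈ X := fun X X1 XP hX g pg => by
    by_cases g1 : g = 1
    · exact g1 ▸ one_mem _
    obtain ⟨v, hv, v1⟩ := exists_mem_ne_one X1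
    obtain ⟨α, rfl⟩ := tp' v g (op v v1 (pP.elt (XP hv))) (op g g1 pg)
    exact hX α ⟨v, hv, rfl⟩
  have sP : Syl p P ⊤ := syl_of_max le_top pP fun Q _ k l => le_antisymm
    (fun g hg => full P P1 le_rfl (fun α => (mP α).le) g (k.elt hg)) l
  have aP : Abel P := fun g hg => (full (𝐙 P) (pP.center_ne_bot P1) inf_le_left (fun α => by
    rw [map_inf_cent α.injective, mP]) g (pP.elt hg)).2
  have eP : Abelem p P := Abelem.mk' hp.out aP fun g hg => by
    by_cases g1 : g = 1
    · simp [g1]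
    · rw [← op g g1 (pP.elt hg), pow_orderOf_eq_one]
  obtain ⟨Q, hQ, bQ⟩ := exists_syl_le (le_top (a := zpowers b))
    (piGrp_of_card_prime hq.out (by rw [Nat.card_zpowers, ob]))
  have r : Reg P Q := reg_of_forall fun x hx x1 y hy e => by_contra fun y1 =>
    nc x y (oq x x1 (hQ.pi.elt hx)) (op y y1 (pP.elt hy)) e
  have QN : Q ≤ 𝐍 P := le_top.trans (O_normal _ _).norm
  have eQ : Q = zpowers b := le_antisymm (fun y hy => by
    by_cases y1 : y = 1
    · exact y1 ▸ one_mem _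
    rw [← r.sr.eq_of_card_eq_prime QN P1 hQ.pi.isPGroup (zpowers_le.2 hy) bQ
      (by rw [Nat.card_zpowers, oq y y1 (hQ.pi.elt hy)]) (by rw [Nat.card_zpowers, ob])]
    exact mem_zpowers y) bQ
  have hQ' : Hall {p}ᶜ Q ⊤ := hQ.congr fun t ht hd => by
    obtain ⟨y, -, ho⟩ := exists_mem_orderOf_eq ht hd
    have := ord y (by rintro rfl; exact ht.one_lt.ne (by simpa using ho))
    simp only [Set.mem_singleton_iff, Set.mem_compl_iff]
    omega
  have sup := sP.sup_eq hQ'
  obtain ⟨n, hn⟩ := pP.card_pow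
  refine ⟨n, Nat.pos_of_ne_zero ?_, ?_, fun S => ?_, ?_, fun x y ox oy e => nc x y ox oy ?_⟩
  · rintro rfl
    exact P1 (card_eq_one'.1 hn)
  · rw [← card_top', ← sP.card_mul_card hQ', hn, eQ, Nat.card_zpowers, ob]
  · rw [sP.eq_of_normal (O_normal _ _).norm (syl_sylow_top S)]
    exact ⟨nP, eP.isEA⟩
  · have := aP.comm
    open scoped IsMulCommutative in
    refine order_of_trans_mul (fun v : P => Subtype.ext (eP.pow v v.2)) (MulAut.conjNormal b)
      (by rw [← map_pow, ← ob, pow_orderOf_eq_one, map_one]) (fun e => ?_) pq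
      (fun v hv => ?_) fun k hk => ?_
    · obtain ⟨v, hv, v1⟩ := exists_mem_ne_one P1
      have := congrArg Subtype.val (MulEquiv.congr_fun e ⟨v, hv⟩)
      exact nc b v ob (op v v1 (pP.elt hv)) (mul_inv_eq_iff_eq_mul.1 this)
    · obtain ⟨M, MP, m⟩ := exists_minN P1 (O_normal _ _).norm
      obtain ⟨w, hw, w1⟩ := exists_mem_ne_one m.ne_bot
      obtain ⟨α, e⟩ := tp' w v (op w w1 (pP.elt (MP hw)))
        (op v (by simpa using hv) (pP.elt v.2))
      have nM : (M.map α.toMonoidHom).Normal :=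
        (normalIn_top.1 ⟨le_top, m.norm⟩).map _ α.surjective
      refine ⟨(M.map α.toMonoidHom).subgroupOf P, ⟨w, hw, e⟩, fun u hu => nM.conj_mem _ hu b,
        fun U hU u hu hw u1 => ?_⟩
      have nU : (U.map P.subtype).Normal := by
        refine normalIn_top.1 ⟨le_top, ?_⟩
        rw [← sup, eQ]
        refine sup_le (aP.le_norm (map_subtype_le U)) (zpowers_le.2 (mem_norm_of_cj_le ?_))
        rintro _ ⟨_, ⟨t, ht, rfl⟩, rfl⟩
        exact ⟨_, hU t ht, rfl⟩
      obtain ⟨s, hs, e'⟩ := hw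
      rcases m.inf_eq_bot_or_le (N := (U.map P.subtype).comap α.toMonoidHom)
        (normalIn_top.2 (nU.comap _)).norm with c | c
      · refine absurd (Subtype.ext ?_) u1
        rw [eq_one_of_mem_bot c ⟨hs, u, hu, e'.symm⟩, map_one] at e'
        exact e'.symm
      · rintro t ⟨s', hs', e''⟩
        obtain ⟨t', ht', e3⟩ := c hs'
        rwa [← Subtype.ext (e3.trans e'')]
    · obtain ⟨α, e1⟩ := tq (b ^ k) (by rw [Nat.Coprime.orderOf_pow (ob ▸ hk.symm), ob])
      refine ⟨(α.subgroupMap P).trans (MulEquiv.subgroupCongr (mP α)), fun u => Subtype.ext ?_⟩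
      rw [← map_pow, ← e1]
      change α (b * u * b⁻¹) = α b * α u * (α b)⁻¹
      simp
  · exact mul_inv_eq_iff_eq_mul.1 e

theorem aut3_of_struct {p q n : ℕ} [hp : Fact p.Prime] [hq : Fact q.Prime] (pq : p ≠ q) (n1 : 1 ≤ n)
    (hc : Nat.card G = p ^ n * q)
    (hS : ∀ P : Sylow p G, (P : Subgroup G).Normal ∧ Cfsg.IsElementaryAbelian p (P : Subgroup G))
    (ho : orderOf (p : ZMod q) = q - 1)
    (nc : ∀ x y : G, orderOf x = q → orderOf y = p → x * y * x⁻¹ ≠ y) :
    ∃ a b : G, a ≠ 1 ∧ b ≠ 1 ∧ (∀ α : MulAut G, α a ≠ b) ∧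
      ∀ g : G, g ≠ 1 → (∃ α : MulAut G, α a = g) ∨ ∃ α : MulAut G, α b = g := by
  obtain ⟨S⟩ : Nonempty (Sylow p G) := inferInstance
  obtain ⟨nP, eP⟩ := hS S
  replace eP := Abelem.of_isEA hp.out eP
  have sP := syl_sylow_top S
  set P := (S : Subgroup G) with hP
  have P1 : P ≠ ⊥ := sP.syl_ne_bot hp.out (by
    rw [card_top', hc]; exact (dvd_pow_self p (by omega)).mul_right q)
  obtain ⟨a, ha, a1⟩ := exists_mem_ne_one P1
  obtain ⟨b, -, ob⟩ := exists_mem_orderOf_eq (H := (⊤ : Subgroup G)) hq.out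
    (by rw [card_top', hc]; exact dvd_mul_left _ _)
  have b1 : b ≠ 1 := by rintro rfl; exact hq.out.one_lt.ne (by simpa using ob)
  have cQ : ♯(zpowers b) = q := by rw [Nat.card_zpowers, ob]
  have fix : ∀ v ∈ P, b * v * b⁻¹ = v → v = 1 := fun v hv e => by_contra fun v1 =>
    nc b v ob (eP.orderOf hv v1) e
  have r : Reg P (zpowers b) := reg_of_prime (cQ ▸ hq.out) (eq_bot_of_forall fun v hv =>
    fix v hv.1 (by rw [mem_cent.1 hv.2 b (mem_zpowers b)]; group))
  have QN : zpowers b ≤ 𝐍 P := le_top.trans (normalIn_top.2 nP).norm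
  have sd : SDProd P (zpowers b) ⊤ := by
    have := SDProd.mk' QN r.inf_eq_bot
    rwa [eq_of_card_eq (le_top (a := P ⊔ zpowers b)) ?_] at this
    rw [← this.card, cQ, card_top', hc, sP.pi.card_eq, sP.logn_eq rfl, card_top', hc,
      logn_mul (pow_pos hp.out.pos _).ne' hq.out.ne_zero, logn_pow hp.out,
      logn_eq_zero ((piNat_prime hq.out).2 pq.symm), add_zero]
  have := eP.abel.comm
  open scoped IsMulCommutative in
  obtain ⟨t1, β, iβ, hβ⟩ := trans_of_order_mul (fun v : P => Subtype.ext (eP.pow v v.2))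
    (MulAut.conjNormal b) (by rw [← map_pow, ← ob, pow_orderOf_eq_one, map_one]) pq
    (fun v e => Subtype.ext (fix v v.2 (congrArg Subtype.val e))) ho
  have ext : ∀ (k : ℕ) (γ : P →* P), k.Coprime q → Function.Injective γ →
      (∀ u, γ (MulAut.conjNormal b u) = (MulAut.conjNormal b ^ k) (γ u)) →
      ∃ α : MulAut G, (∀ v : P, α v = γ v) ∧ α b = b ^ k := by
    intro k γ hk iγ hγ
    have := (abel_zpowers b).comm
    open scoped IsMulCommutative in
    obtain ⟨α, h1, h2⟩ := exists_aut_ext sd.isComplement' γ (powMonoidHom k) iγ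
      (powCoprime (by rw [cQ]; exact hk.symm)).injective (by
        rintro ⟨x, hx⟩ v
        obtain ⟨i, rfl⟩ := (mem_powers_iff_mem_zpowers.2 hx)
        have : ∀ u, γ (MulAut.conjNormal (b ^ i) u) = MulAut.conjNormal ((b ^ i) ^ k) (γ u) := by
          induction i with
          | zero => simp
          | succ i ih =>
            intro u
            rw [pow_succ, map_mul, MulAut.mul_apply, ih (pow_mem (mem_zpowers b) _), hγ, ← map_pow,
              ← MulAut.mul_apply, ← map_mul, ← pow_succ, ← pow_mul, ← pow_mul, ← pow_add,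
              add_one_mul]
        exact congrArg Subtype.val (this v))
    exact ⟨α, h1, h2 ⟨b, mem_zpowers b⟩⟩
  refine ⟨a, b, a1, b1, fun α e => pq (by rw [← eP.orderOf ha a1, ← α.orderOf_eq, e, ob]),
    fun g g1 => ?_⟩
  by_cases hg : g ∈ P
  · obtain ⟨γ, i, e, c⟩ := t1 ⟨a, ha⟩ ⟨g, hg⟩ (by simpa using a1) (by simpa using g1)
    obtain ⟨α, h1, -⟩ := ext 1 γ (Nat.coprime_one_left q) i (by simpa using c)
    exact Or.inl ⟨α, by rw [h1 ⟨a, ha⟩, e]⟩
  right
  obtain ⟨α, -, h2⟩ := ext p β ((Nat.coprime_primes hp.out hq.out).2 pq) iβ hβ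
  have pw : ∀ j : ℕ, (α ^ j) b = b ^ p ^ j := fun j => by
    induction j with
    | zero => simp
    | succ j ih => rw [pow_succ', MulAut.mul_apply, ih, map_pow, h2, ← pow_mul, pow_succ']
  obtain ⟨k, hk, m⟩ := r.sr.exists_conj_mem QN (sd.sup ▸ mem_top g) hg
  obtain ⟨i, hi⟩ := mem_powers_iff_mem_zpowers.2 m
  have p0 : (p : ZMod q) ≠ 0 := fun h =>
    pq ((Nat.prime_dvd_prime_iff_eq hq.out hp.out).1 ((ZMod.natCast_eq_zero_iff _ _).1 h)).symm
  have i0 : (i : ZMod q) ≠ 0 := fun h => by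
    rw [ZMod.natCast_eq_zero_iff, ← ob, orderOf_dvd_iff_pow_eq_one] at h
    simp only [h] at hi
    exact g1 (by simpa using conj_eq_one_iff.1 (show k⁻¹ * g * k⁻¹⁻¹ = 1 by simpa using hi.symm))
  have top : zpowers (Units.mk0 (p : ZMod q) p0) = ⊤ := by
    rw [← card_eq_iff_eq_top, Nat.card_zpowers, Nat.card_eq_fintype_card, ZMod.card_units, ← ho,
      ← orderOf_units]
    rfl
  obtain ⟨j, hj⟩ := mem_powers_iff_mem_zpowers.2 (top ▸ mem_top (Units.mk0 (i : ZMod q) i0))
  have hj' : p ^ j ≡ i [MOD q] := (ZMod.natCast_eq_natCast_iff _ _ _).1 (by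
    simpa using congrArg Units.val hj)
  refine ⟨MulAut.conj k * α ^ j, ?_⟩
  rw [MulAut.mul_apply, pw, pow_eq_pow_iff_modEq.2 (ob ▸ hj')]
  simp only at hi
  rw [hi]; simp [mul_assoc]

end grp

end CF.SolvStr
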