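import Cfsg.Agent.SolvStr.Misc1
import Cfsg.Agent.Fgs2.FrobComp
import Cfsg.Agent.Fgs2.Count
import Cfsg.Agent.Coprime.Frobenius
import Cfsg.Prelude.Def_OddOrderLocal

/-! Hall subgroups with trivial intersections. -/

namespace CF.SolvStr

open Subgroup Cfsg CF.Solv CF.Transfer
open scoped Pointwise commutatorElement

universe u

variable {G : Type*} [Group G] {G' : Type*} [Group G'] {p : ℕ} {π : Set ℕ}

theorem ti_mem_normalizer {H : Subgroup G} (hTI : IsTISubset (H : Set G)) {g x : G} (hx : x ∈ H)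
    (hx1 : x ≠ 1) (h : g * x * g⁻¹ ∈ H) : g ∈ normalizer (H : Set G) := by
  by_contra hg
  exact hx1 (hTI g hg x hx h)

theorem ti_cj {H : Subgroup G} (hTI : IsTISubset (H : Set G)) (a : G) :
    IsTISubset (cj a H : Set G) := by
  intro g hg x hx h
  by_contra hx1
  apply hg
  rw [normalizer_cj, mem_cj]
  refine ti_mem_normalizer hTI (x := a⁻¹ * x * a) (mem_cj.1 hx) (fun e => hx1 ?_) ?_
  · calc x = a * (a⁻¹ * x * a) * a⁻¹ := by group
      _ = 1 := by rw [e]; group
  · have := mem_cj.1 h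
    simpa [mul_assoc] using this

theorem mem_of_mem_normalizer_hall [Finite G] {H : Subgroup G} (hH : IsPiHall π H) {x : G}
    (hx : x ∈ normalizer (H : Set G)) (h : PiNum π (orderOf x)) : x ∈ H :=
  le_of_le_normalizer_isPiHallOf (isPiHallOf_top_iff.2 hH) le_top (zpowers_le.2 hx)
    (by rwa [Nat.card_zpowers]) (mem_zpowers x)

theorem exists_mem_cj_of_prime [Finite G] {H : Subgroup G} (hH : IsPiHall π H) {x : G}
    (hx : (orderOf x).Prime) (h : orderOf x ∈ π) : ∃ g, x ∈ cj g H := by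
  have := Fact.mk hx
  obtain ⟨g, hg⟩ := exists_conj_le_of_not_dvd_index (K := H)
    (isPGroup_zpowers (p := orderOf x) (k := 1) (pow_one _).symm)
    fun hd => isPiHall_piNum_index hH _ hx hd h
  exact ⟨g⁻¹, mem_cj_inv.2 (hg (conj_mem_conj_smul (mem_zpowers x) g))⟩

/-- A Hall subgroup with trivial intersections contains a conjugate of every subgroup whose order
involves only the relevant primes. -/
theorem exists_le_cj_of_ti [Finite G] {H K : Subgroup G} (hH : IsPiHall π H)
    (hTI : IsTISubset (H : Set G)) (hK : PiNum π (Nat.card K)) : ∃ g, K ≤ cj g H := by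
  by_contra h
  push Not at h
  have key : ∀ y : K, (orderOf y).Prime → ∃ g, y ∈ (cj g H).subgroupOf K ∧
      IsFrobeniusComplement ((cj g H).subgroupOf K) := by
    intro y hy
    rw [← Subgroup.orderOf_coe] at hy
    obtain ⟨g, hg⟩ := exists_mem_cj_of_prime hH hy (hK _ hy (K.orderOf_dvd_natCard y.2))
    refine ⟨g, hg, CF.Coprime.isFrobeniusComplement_iff.2 ⟨fun e => ?_, fun e => ?_, ?_⟩⟩
    · have : y = 1 := mem_bot.1 (e ▸ hg)
      rw [this] at hy
      simpa using hy.one_lt
    · exact h g (subgroupOf_eq_top.1 e)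
    · intro k x hx hx1 hkx
      exact mem_of_mem_normalizer_hall (isPiHall_smul hH (MulAut.conj g))
        (ti_mem_normalizer (ti_cj hTI g) hx (fun e => hx1 (Subtype.ext e)) hkx)
        (piNum_card_iff_orderOf.1 hK k k.2)
  have hK1 : (⊤ : Subgroup K) ≠ ⊥ := fun e => h 1 fun x hx => by
    have : (⟨x, hx⟩ : K) = 1 := mem_bot.1 (e ▸ mem_top _)
    rw [show x = 1 from congrArg Subtype.val this]; exact one_mem _
  obtain ⟨x, -, hx⟩ := CF.Coprime.exists_prime_orderOf_mem hK1
  obtain ⟨g, -, h1⟩ := key x hx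
  obtain ⟨K₁, hK₁, -, -, hK₁b, -⟩ := CF.Coprime.frob_exists_kernel h1
  obtain ⟨y, hy, hyp⟩ := CF.Coprime.exists_prime_orderOf_mem hK₁b
  obtain ⟨g', hg', h2⟩ := key y hyp
  have h3 : y ∈ frobeniusKernel ((cj g' H).subgroupOf K) := by
    rw [← CF.Coprime.frobeniusKernel_eq_of_frob h1 h2, ← hK₁]; exact hy
  rcases h3 with h3 | h3
  · rw [h3] at hyp; simpa using hyp.one_lt
  · exact h3 1 (by rw [one_conj_smul]; exact hg')

theorem coprime_index_of_ti [Finite G] {H : Subgroup G} (hTI : IsTISubset (H : Set G))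
    (hHall : (Nat.card H).Coprime (H.relIndex (normalizer (H : Set G)))) :
    (Nat.card H).Coprime H.index := by
  refine Nat.coprime_of_dvd fun p hp hd hd' => ?_
  have := Fact.mk hp
  obtain ⟨S, hS⟩ := exists_isSylowIn p H
  have hS1 := hS.trans_of_not_dvd le_normalizer
    (hp.coprime_iff_not_dvd.1 (hHall.coprime_dvd_left hd))
  obtain ⟨x, hx, hx1⟩ := (bot_or_exists_ne_one S).resolve_left fun e => hS.eq_bot_iff.1 e hd
  have h2 : normalizer (S : Set G) ≤ normalizer (H : Set G) := fun g hg =>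
    ti_mem_normalizer hTI (hS.le hx) hx1 (hS.le (conj_mem_of_mem_normalizer hg hx))
  have h3 : IsSylowIn p S ⊤ := by
    refine isSylowIn_of_maximal hS.isPGroup le_top fun Q hQ hSQ _ => ?_
    by_contra h
    have h4 := lt_inf_normalizer_of_lt hQ (lt_of_le_not_ge hSQ h)
    exact h4.ne' (hS1.eq_of_le hQ.to_inf_left h4.le (inf_le_right.trans h2))
  refine h3.not_dvd ?_
  rw [relIndex_top_right]
  exact hd'.trans (index_dvd_of_le hS.le)

/-- A group acting coprimely on a nilpotent group so that all nonidentity elements have the same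
proper centralizer is a Frobenius complement. -/
theorem exists_frobenius_of_centralizer {G : Type u} [Group G] [Finite G] {H Q : Subgroup G}
    [Group.IsNilpotent Q] (hn : H ≤ normalizer (Q : Set G))
    (hcop : (Nat.card H).Coprime (Nat.card Q)) (hC : ¬ Q ≤ centralizer (H : Set G))
    (h : ∀ x ∈ H, x ≠ 1 → Q ⊓ centralizer {x} ≤ centralizer (H : Set G)) :
    ∃ (F : Type u) (_ : Group F) (_ : Finite F) (C : Subgroup F), IsFrobeniusComplement C ∧
      Nonempty (H ≃* C) := by
  obtain ⟨M, hM1, hM⟩ := exists_maximal_ge_of_wellFoundedGT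
    (fun M : Subgroup G => M < Q ∧ H ≤ normalizer (M : Set G)) (Q ⊓ centralizer (H : Set G))
    ⟨lt_of_le_of_ne inf_le_left fun e => hC (inf_eq_left.1 e),
      CF.Coprime.le_normalizer_inf hn (CF.Coprime.le_normalizer_centralizer le_normalizer)⟩
  have hQM : Q ≤ normalizer (M : Set G) := by
    by_contra hne
    have h1 := lt_inf_normalizer_of_isNilpotent hM.1.1
    exact h1.not_ge (hM.2 ⟨lt_of_le_of_ne inf_le_left fun e => hne (inf_eq_left.1 e),
      CF.Coprime.le_normalizer_inf hn (hM.1.2.trans le_normalizer)⟩ h1.le)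
  have : (M.subgroupOf Q).Normal := (normal_subgroupOf_iff_le_normalizer hM.1.1.le).2 hQM
  have : Nontrivial H := (nontrivial_iff_ne_bot H).2 fun e => hC (by
    rintro x - y hy
    rw [e] at hy
    rw [mem_bot.1 hy]; simp)
  have : Nontrivial (Q ⧸ M.subgroupOf Q) :=
    QuotientGroup.nontrivial_iff.2 fun e => hM.1.1.not_ge (subgroupOf_eq_top.1 e)
  obtain ⟨F, _, _, C, h1, h2, -⟩ := CF.Fgs2.exists_frobenius_aux
    (CF.Coprime.sectionAct H Q M hn hM.1.2) fun c hc v hv => by
      obtain ⟨u, rfl⟩ := QuotientGroup.mk_surjective v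
      obtain ⟨m, hm, hum⟩ := CF.Coprime.exists_mul_mem_centralizer' (zpowers (c : G)) M
        ((zpowers_le.2 c.2).trans hM.1.2)
        (CF.Coprime.coprime_of_le hcop (zpowers_le.2 c.2) hM.1.1.le) (Or.inl inferInstance) u (by
          rintro _ ⟨k, rfl⟩
          have h3 : CF.Coprime.sectionAct H Q M hn hM.1.2 (c ^ k) (u : Q ⧸ M.subgroupOf Q) = u := by
            rw [map_zpow]
            exact (MulAction.stabilizer (MulAut (Q ⧸ M.subgroupOf Q))
              (u : Q ⧸ M.subgroupOf Q)).zpow_mem (MulAction.mem_stabilizer_iff.2 hv) k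
          rw [CF.Coprime.sectionAct_mk, eq_comm, QuotientGroup.eq, mem_subgroupOf] at h3
          exact h3)
      rw [QuotientGroup.eq_one_iff, mem_subgroupOf]
      have h4 : (u : G) * m ∈ Q := mul_mem u.2 (hM.1.1.le hm)
      have h5 := hM1 ⟨h4, h c c.2 (fun e => hc (Subtype.ext e))
        ⟨h4, CF.Coprime.centralizer_zpowers_eq (c : G) ▸ hum⟩⟩
      simpa using M.mul_mem h5 (M.inv_mem hm)
  exact ⟨F, _, inferInstance, C, h1, h2⟩

end CF.SolvStr
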