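import Cfsg.Agent.SolvStr.Misc1
import Cfsg.Agent.PLocal.Util

/-! P. Hall's theorem on the number of Hall subgroups of a solvable group. -/

namespace CF.SolvStr

open Subgroup Cfsg CF.Solv CF.Transfer
open scoped Pointwise commutatorElement

universe u

variable {G : Type*} [Group G] {G' : Type*} [Group G'] {p : ℕ} {π : Set ℕ}

theorem card_conjugates (H : Subgroup G) :
    Nat.card {K : Subgroup G // ∃ g : G, MulAut.conj g • H = K} = (normalizer (H : Set G)).index := by
  let _ : MulAction G (Subgroup G) := MulAction.compHom _ MulAut.conj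
  have h : MulAction.stabilizer G H = normalizer (H : Set G) := by
    ext g; exact conj_smul_eq_iff
  rw [← h, MulAction.index_stabilizer]
  rfl

theorem relIndex_centralizer_eq_prod [Finite G] {r : ℕ} [hr : Fact r.Prime] {V : Subgroup G}
    (hV : IsPGroup r V) (H : Subgroup G) (hs : Group.IsSolvable H)
    (hn : H ≤ normalizer (V : Set G)) (hc : (Nat.card H).Coprime r) :
    ∃ l : List ℕ, (centralizer (H : Set G)).relIndex V = l.prod ∧ ∀ f ∈ l,
      (∃ e, f = r ^ e) ∧ f ∣ Nat.card V ∧ ∃ q, q.Prime ∧ q ∣ Nat.card H ∧ f ≡ 1 [MOD q] := by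
  induction H using WellFoundedLT.induction with
  | ind H ih =>
  by_cases h0 : H = ⊥
  · refine ⟨[], ?_, by simp⟩
    rw [h0, List.prod_nil, relIndex_eq_one]
    rintro x - _ rfl; simp
  obtain ⟨B, Q, q, hq, hqH, hBH, hn', hQ, hsup⟩ := CF.Coprime.exists_normal_sup_isPGroup H h0
  have := Fact.mk hq
  have hQH : Q ≤ H := hsup ▸ le_sup_right
  obtain ⟨l, h1, h2⟩ := ih B hBH (isSolvable_of_le hBH.le) (hBH.le.trans hn)
    (hc.coprime_dvd_left (card_dvd_of_le hBH.le))
  set W := V ⊓ centralizer (B : Set G) with hW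
  have hCW : V ⊓ centralizer (H : Set G) = W ⊓ centralizer (Q : Set G) := by
    rw [← hsup, CF.PLocal.centralizer_sup, inf_assoc]
  refine ⟨(centralizer (H : Set G)).relIndex W :: l, ?_, ?_⟩
  · rw [List.prod_cons, ← h1, ← inf_relIndex_left V (centralizer (B : Set G)), ← hW,
      ← inf_relIndex_left V, ← inf_relIndex_left W, hCW,
      ← relIndex_mul_relIndex _ W V inf_le_left inf_le_left]
    congr 2
    rw [← hCW]
    exact le_antisymm (le_inf (hCW.le.trans inf_le_left) inf_le_right)
      (inf_le_inf_right _ inf_le_left)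
  · intro f hf
    rcases List.mem_cons.1 hf with rfl | hf
    · refine ⟨isPGroup_relIndex (hV.to_le inf_le_left) _,
        (relIndex_dvd_card _ _).trans (card_dvd_of_le inf_le_left), q, hq, hqH, ?_⟩
      have h3 := card_modEq_card_inf_centralizer hQ (L := W) (CF.PLocal.le_normalizer_inf
        (hQH.trans hn) (CF.PLocal.le_normalizer_centralizer (hQH.trans hn')))
      have h4 : W ⊓ centralizer (Q : Set G) = centralizer (H : Set G) ⊓ W := by
        rw [← hCW]
        exact le_antisymm (le_inf inf_le_right (hCW.le.trans inf_le_left))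
          (le_inf (inf_le_right.trans inf_le_left) inf_le_left)
      rw [h4, ← card_inf_mul_relIndex (centralizer (H : Set G)) W] at h3
      refine Nat.ModEq.cancel_left_of_coprime (c := Nat.card (centralizer (H : Set G) ⊓ W :
        Subgroup G)) ?_ (by rwa [mul_one])
      exact (coprime_card_of_isPGroup (hV.to_le (inf_le_right.trans inf_le_left))
        (hc.coprime_dvd_left hqH)).symm
    · obtain ⟨a, b, s, hs, hsd, c⟩ := h2 f hf
      exact ⟨a, b, s, hs, hsd.trans (card_dvd_of_le hBH.le), c⟩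

theorem index_normalizer_hall_eq_prod (π : Set ℕ) (G : Type u) [Group G] [Finite G] :
    Group.IsSolvable G → ∀ H : Subgroup G, IsPiHall π H →
    ∃ l : List ℕ, (normalizer (H : Set G)).index = l.prod ∧ ∀ f ∈ l,
      (∃ q e : ℕ, q.Prime ∧ f = q ^ e) ∧ (∃ K L : Subgroup G, K.Normal ∧ L.Normal ∧ K < L ∧
        (∀ M : Subgroup G, M.Normal → K ≤ M → M ≤ L → M = K ∨ M = L) ∧ f ∣ K.relIndex L) ∧
        ∃ q, q.Prime ∧ q ∣ Nat.card H ∧ f ≡ 1 [MOD q] := by
  refine group_induction (P := fun G _ _ => Group.IsSolvable G → ∀ H : Subgroup G, IsPiHall π H →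
    ∃ l : List ℕ, (normalizer (H : Set G)).index = l.prod ∧ ∀ f ∈ l,
      (∃ q e : ℕ, q.Prime ∧ f = q ^ e) ∧ (∃ K L : Subgroup G, K.Normal ∧ L.Normal ∧ K < L ∧
        (∀ M : Subgroup G, M.Normal → K ≤ M → M ≤ L → M = K ∨ M = L) ∧ f ∣ K.relIndex L) ∧
        ∃ q, q.Prime ∧ q ∣ Nat.card H ∧ f ≡ 1 [MOD q]) ?_ G
  intro G _ _ ih hG H hH
  rcases subsingleton_or_nontrivial G with _ | _
  · exact ⟨[], by rw [List.prod_nil, index_eq_one]; exact Subsingleton.elim _ _, by simp⟩
  obtain ⟨V, hV⟩ := exists_isMinNormal (G := G)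
  have := hV.1
  obtain ⟨r, hr, -, hVr⟩ := hV.exists_isElementaryAbelian
  have := Fact.mk hr
  have hs := QuotientGroup.mk'_surjective V
  obtain ⟨l, h1, h2⟩ := ih _ (card_quotient_lt hV.2.1) inferInstance _ (isPiHall_map hH hs)
  have h3 : (normalizer (H : Set G) ⊔ V).index = l.prod := by
    rw [← h1, ← index_comap_mk']
    congr 1
    refine le_antisymm (sup_le (fun g hg => ?_) (le_comap_mk' _ _)) fun g hg => ?_
    · exact le_normalizer_map _ ⟨g, hg, rfl⟩
    · have hg' : g ∈ normalizer ((H ⊔ V : Subgroup G) : Set G) := by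
        rw [← comap_map_mk']
        exact le_normalizer_comap _ hg
      obtain ⟨x, hx, hxg⟩ := (isPiSep_of_isSolvable π).exists_mul_mem_normalizer
        hallOK_of_isSolvable (isPiHallOf_of_isPiHall hH (le_sup_left (b := V))) hg'
      have : g = x⁻¹ * (x * g) := by group
      rw [this]
      exact mul_mem (inv_mem (sup_le_sup_right le_normalizer V hx)) (mem_sup_left hxg)
  obtain ⟨l', h4, h5⟩ : ∃ l : List ℕ, (normalizer (H : Set G)).relIndex V = l.prod ∧ ∀ f ∈ l,
      (∃ e, f = r ^ e) ∧ f ∣ Nat.card V ∧ ∃ q, q.Prime ∧ q ∣ Nat.card H ∧ f ≡ 1 [MOD q] := by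
    by_cases hrπ : r ∈ π
    · refine ⟨[], ?_, by simp⟩
      rw [List.prod_nil, relIndex_eq_one]
      exact (le_of_normal_of_isPiHall hH ((isPGroup_iff_piNum_singleton.1 hVr).mono
        (by rintro _ rfl; exact hrπ))).trans le_normalizer
    · have hc : (Nat.card H).Coprime r :=
        (hr.coprime_iff_not_dvd.2 fun h => hrπ (isPiHall_piNum_card hH r hr h)).symm
      have e : V ⊓ normalizer (H : Set G) = V ⊓ centralizer (H : Set G) := by
        refine le_antisymm (le_inf inf_le_left ?_) (inf_le_inf_left _ (centralizer_le_normalizer _))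
        refine le_centralizer_of_le_normalizer_of_inf_eq_bot inf_le_right ?_ ?_
        · exact CF.PLocal.le_normalizer_inf le_normalizer_of_normal (le_normalizer.trans le_normalizer)
        · exact inf_eq_bot_of_isPGroup_of_coprime (hVr.to_le inf_le_left) hc
      rw [← inf_relIndex_left V, e, inf_relIndex_left]
      exact relIndex_centralizer_eq_prod hVr H inferInstance le_normalizer_of_normal hc
  refine ⟨l' ++ l, ?_, fun f hf => ?_⟩
  · rw [List.prod_append, ← h3, ← h4,
      ← relIndex_sup_eq_relIndex_of_le_normalizer le_normalizer_of_normal,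
      relIndex_mul_index le_sup_left]
  · rcases List.mem_append.1 hf with hf | hf
    · obtain ⟨⟨e, he⟩, b, c⟩ := h5 f hf
      exact ⟨⟨r, e, hr, he⟩, ⟨⊥, V, inferInstance, hV.1, bot_lt_iff_ne_bot.2 hV.2.1,
        fun M hM _ h => hV.2.2 M hM h, by rwa [relIndex_bot_left]⟩, c⟩
    · obtain ⟨a, ⟨K, L, hK, hL, hKL, hch, hd⟩, q, hq, hqd, c⟩ := h2 f hf
      refine ⟨a, ⟨K.comap (QuotientGroup.mk' V), L.comap (QuotientGroup.mk' V), inferInstance,
        inferInstance, (comap_lt_comap_of_surjective hs).2 hKL, fun M hM h6 h7 => ?_, ?_⟩,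
        q, hq, hqd.trans (card_map_dvd _ _), c⟩
      · have hVM : V ≤ M := (le_comap_mk' V K).trans h6
        have e : M = (M.map (QuotientGroup.mk' V)).comap (QuotientGroup.mk' V) := by
          rw [comap_map_mk', sup_eq_left.2 hVM]
        rcases hch (M.map (QuotientGroup.mk' V)) (hM.map _ hs)
          (map_comap_mk' V K ▸ map_mono h6) (map_le_iff_le_comap.2 h7) with h | h
        · left; rw [e, h]
        · right; rw [e, h]
      · rwa [relIndex_comap, map_comap_mk']

end CF.SolvStr
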